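import Mathlib
import Cfsg.Prelude.Def_Transfer

set_option autoImplicit false

namespace Cfsg.Agent.H53.D8Mod

section
variable {S : Type*} [Group S]

theorem span9 [Finite S] (A : Subgroup S) (hA : Cfsg.IsElementaryAbelian 3 A) (hA9 : Nat.card ↥A = 9)
    {u v : S} (hu : u ∈ A) (hv : v ∈ A) (h1 : u ≠ 1) (h2 : v ≠ 1) (h3 : v ≠ u) (h4 : v ≠ u⁻¹)
    (x : S) (hx : x ∈ A) : ∃ i j : ℕ, x = u ^ i * v ^ j := by
  have hc : u * v = v * u := by
    have := hA.1.is_comm.comm (⟨u, hu⟩ : A) ⟨v, hv⟩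
    exact congrArg Subtype.val this
  have hC : Commute u v := hc
  have hu3 : u ^ 3 = 1 := hA.2 u hu
  have hv3 : v ^ 3 = 1 := hA.2 v hv
  have hou : orderOf u = 3 := by
    have : Fact (Nat.Prime 3) := ⟨by norm_num⟩
    exact orderOf_eq_prime hu3 h1
  have hov : orderOf v = 3 := by
    have : Fact (Nat.Prime 3) := ⟨by norm_num⟩
    exact orderOf_eq_prime hv3 h2
  have hui : u⁻¹ = u ^ 2 := by
    rw [inv_eq_iff_mul_eq_one, ← pow_succ', hu3]
  have hvi : v⁻¹ = v ^ 2 := by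
    rw [inv_eq_iff_mul_eq_one, ← pow_succ', hv3]
  -- key: u^i = v^j implies both trivial
  have key : ∀ i j : ℕ, u ^ i = v ^ j → i % 3 = 0 ∧ j % 3 = 0 := by
    intro i j h
    rw [← pow_mod_orderOf u i, ← pow_mod_orderOf v j, hou, hov] at h
    have hi : i % 3 < 3 := Nat.mod_lt _ (by norm_num)
    have hj : j % 3 < 3 := Nat.mod_lt _ (by norm_num)
    generalize i % 3 = i' at *
    generalize j % 3 = j' at *
    have hu2 : u ^ 2 ≠ 1 := by rw [← hui]; simpa using h1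
    have hv2 : v ^ 2 ≠ 1 := by rw [← hvi]; simpa using h2
    interval_cases i' <;> interval_cases j'
    · simp
    · exact absurd (by simpa using h.symm) h2
    · exact absurd (by simpa using h.symm) hv2
    · exact absurd (by simpa using h) h1
    · exact absurd (by simpa using h.symm) h3
    · exfalso; apply h4
      rw [← hvi, pow_one] at h
      rw [h, inv_inv]
    · exact absurd (by simpa using h) hu2
    · exfalso; apply h4
      rw [← hui, pow_one] at h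
      exact h.symm
    · exfalso; apply h3
      rw [← hui, ← hvi] at h
      exact (inv_injective h).symm
  let f : Fin 3 × Fin 3 → A := fun p => ⟨u ^ (p.1 : ℕ) * v ^ (p.2 : ℕ), A.mul_mem (A.pow_mem hu _) (A.pow_mem hv _)⟩
  have hf : Function.Injective f := by
    rintro ⟨i, j⟩ ⟨k, l⟩ h
    have h' : u ^ (i : ℕ) * v ^ (j : ℕ) = u ^ (k : ℕ) * v ^ (l : ℕ) := congrArg Subtype.val h
    have h'' : u ^ ((i : ℕ) + 2 * k) = v ^ ((l : ℕ) + 2 * j) := by
      have e1 : u ^ (2 * (k : ℕ)) * u ^ (k : ℕ) = 1 := by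
        rw [← pow_add, show 2 * (k : ℕ) + k = 3 * k by ring, pow_mul, hu3, one_pow]
      have e2 : v ^ (j : ℕ) * v ^ (2 * (j : ℕ)) = 1 := by
        rw [← pow_add, show (j : ℕ) + 2 * j = 3 * j by ring, pow_mul, hv3, one_pow]
      calc u ^ ((i : ℕ) + 2 * k) = u ^ (2 * (k : ℕ)) * (u ^ (i : ℕ) * v ^ (j : ℕ)) * v ^ (2 * (j : ℕ)) := by
            rw [mul_assoc, mul_assoc, e2, mul_one, ← pow_add, add_comm]
        _ = v ^ ((l : ℕ) + 2 * j) := by
            rw [h', ← mul_assoc, e1, one_mul, ← pow_add]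
    obtain ⟨a1, a2⟩ := key _ _ h''
    have := i.2; have := j.2; have := k.2; have := l.2
    ext <;> simp <;> omega
  have hs : Function.Surjective f := by
    have : Function.Bijective f := (Nat.bijective_iff_injective_and_card f).2 ⟨hf, by simp [hA9]⟩
    exact this.2
  obtain ⟨p, hp⟩ := hs ⟨x, hx⟩
  exact ⟨p.1, p.2, (congrArg Subtype.val hp).symm⟩

end

section
variable {S : Type*} [Group S] {M : Type*} [AddCommGroup M] [Module (ZMod 2) M]

theorem add_self2 (v : M) : v + v = 0 := by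
  rw [← two_smul (ZMod 2) v, show (2 : ZMod 2) = 0 from rfl, zero_smul]

theorem core [Finite S] (ρ : Representation (ZMod 2) S M)
    (A : Subgroup S) [A.Normal] (hA : Cfsg.IsElementaryAbelian 3 A) (hA9 : Nat.card ↥A = 9)
    {r s a : S} (hr : r ^ 4 = 1) (hs : s ^ 2 = 1) (hsr : s * r = r⁻¹ * s)
    (hz : ∀ x ∈ A, r ^ 2 * x = x⁻¹ * r ^ 2)
    (hirr : ∀ N : Submodule (ZMod 2) M, (∀ x ∈ A, ∀ m ∈ N, ρ x m ∈ N) → (∀ m ∈ N, ρ r m ∈ N) →
      (∀ m ∈ N, ρ s m ∈ N) → N = ⊥ ∨ N = ⊤)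
    (hCA : ∀ m : M, (∀ x ∈ A, ρ x m = m) → m = 0)
    (ha : a ∈ A) (ha1 : a ≠ 1) (hsa : s * a = a * s) (m0 : M) (hm0 : m0 ≠ 0) (ham0 : ρ a m0 = m0) :
    Nat.card M = 16 ∧ Nat.card {m : M // ρ (r ^ 2) m = m ∧ ρ s m = m} = 4 ∧
      Nat.card {m : M // ρ (r ^ 2) m = m ∧ ρ (s * r) m = m} = 2 := by
  have mul : ∀ (g h : S) (v : M), ρ (g * h) v = ρ g (ρ h v) := by
    intro g h v; rw [map_mul]; rfl
  have one : ∀ v : M, ρ 1 v = v := by intro v; rw [map_one]; rfl
  have inj : ∀ (g : S) (v : M), ρ g v = 0 → v = 0 := by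
    intro g v h
    rw [← one v, ← inv_mul_cancel g, mul, h, map_zero]
  obtain ⟨z, hzd⟩ : ∃ z, z = r ^ 2 := ⟨_, rfl⟩
  rw [← hzd] at hz ⊢
  obtain ⟨b, hbd⟩ : ∃ b, b = r * a * r⁻¹ := ⟨_, rfl⟩
  have hb : b ∈ A := hbd ▸ (inferInstance : A.Normal).conj_mem a ha r
  have ha3 : a ^ 3 = 1 := hA.2 a ha
  have hb3 : b ^ 3 = 1 := hA.2 b hb
  have hai : a⁻¹ = a * a := by
    rw [inv_eq_iff_mul_eq_one, ← ha3]; simp [pow_succ, mul_assoc]
  have hbi : b⁻¹ = b * b := by
    rw [inv_eq_iff_mul_eq_one, ← hb3]; simp [pow_succ, mul_assoc]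
  have hab : a * b = b * a := by
    have := hA.1.is_comm.comm (⟨a, ha⟩ : A) ⟨b, hb⟩
    exact congrArg Subtype.val this
  have hra : r * a = b * r := by rw [hbd]; group
  have hrb : r * b = a⁻¹ * r := by
    have h1 := hz a ha
    rw [hzd] at h1
    calc r * b = r ^ 2 * a * r⁻¹ := by rw [hbd, sq]; group
      _ = a⁻¹ * r := by rw [h1]; group
  have hri : r⁻¹ = r * z := by
    rw [inv_eq_iff_mul_eq_one, hzd, ← hr]; group
  have hzz : z * z = 1 := by rw [hzd, ← hr]; group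
  have hss : s * s = 1 := by rw [← hs, sq]
  have hzs : z * s = s * z := by
    have h1 : s * r ^ 2 = r⁻¹ * r⁻¹ * s := by rw [sq, ← mul_assoc, hsr, mul_assoc, hsr, mul_assoc]
    have h2 : r⁻¹ * r⁻¹ = r ^ 2 := by
      rw [← mul_inv_rev, inv_eq_iff_mul_eq_one, ← hr]; group
    rw [hzd, h1, h2]
  have hzr : z * r = r * z := by rw [hzd]; group
  have haa : a⁻¹ ≠ a := by
    intro h
    apply ha1
    have : a * a = a := hai.symm.trans h
    simpa using this
  have hba : b ≠ a := by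
    intro h
    apply haa
    have h1 : r * b = b * r := by rw [h] at hra ⊢; exact hra
    rw [hrb] at h1
    rw [mul_right_cancel h1, h]
  have hba' : b ≠ a⁻¹ := by
    intro h
    apply haa
    have h1 : r * a⁻¹ = a⁻¹ * r := by rw [← hrb, h]
    have h2 : r * a = a * r := by
      have : Commute r a⁻¹ := h1
      simpa using this.inv_right.eq
    rw [hra] at h2
    exact h.symm.trans (mul_right_cancel h2)
  have hb1 : b ≠ 1 := by
    intro h; apply ha1
    rw [h] at hra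
    simpa using hra
  have hsb : s * b = b⁻¹ * s := by
    have h1 := hz a ha
    have h2 : s * r⁻¹ = r * s := by
      calc s * r⁻¹ = r * (r⁻¹ * s) * r⁻¹ := by group
        _ = r * s := by rw [← hsr]; group
    calc s * b = (s * r) * a * r⁻¹ := by rw [hbd]; group
      _ = r⁻¹ * (s * a) * r⁻¹ := by rw [hsr]; group
      _ = r⁻¹ * a * (s * r⁻¹) := by rw [hsa]; group
      _ = r * (z * a) * r * s := by rw [h2, hri]; group
      _ = r * a⁻¹ * (z * r) * s := by rw [h1]; group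
      _ = r * a⁻¹ * r⁻¹ * s := by rw [hzr, ← hri]
      _ = b⁻¹ * s := by rw [hbd]; group
  have hC2 : ∀ v : M, ρ a v = v → ρ b v = v → v = 0 := by
    intro v h1 h2
    apply hCA
    intro x hx
    obtain ⟨i, j, rfl⟩ := span9 A hA hA9 ha hb ha1 hb1 hba hba' x hx
    have p : ∀ (g : S), ρ g v = v → ∀ k : ℕ, ρ (g ^ k) v = v := by
      intro g hg k
      induction k with
      | zero => rw [pow_zero, one]
      | succ k ih => rw [pow_succ, mul, hg, ih]
    rw [mul, p b h2, p a h1]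
  -- a vector fixed by a, z, s
  obtain ⟨m1, hm1, ham1, hzm1⟩ : ∃ m1 : M, m1 ≠ 0 ∧ ρ a m1 = m1 ∧ ρ z m1 = m1 := by
    by_cases h : ρ z m0 = m0
    · exact ⟨m0, hm0, ham0, h⟩
    · refine ⟨m0 + ρ z m0, ?_, ?_, ?_⟩
      · intro h'; apply h
        rw [← add_self2 m0] at h'
        exact add_left_cancel h'
      · have h1 : a * z = z * (a * a) := by
          rw [← hai, hz _ (A.inv_mem ha), inv_inv]
        rw [map_add, ham0, ← mul, h1, mul, mul, ham0, ham0]
      · rw [map_add, ← mul, hzz, one, add_comm]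
  obtain ⟨m, hm, ham, hzm, hsm⟩ : ∃ m : M, m ≠ 0 ∧ ρ a m = m ∧ ρ z m = m ∧ ρ s m = m := by
    by_cases h : ρ s m1 = m1
    · exact ⟨m1, hm1, ham1, hzm1, h⟩
    · refine ⟨m1 + ρ s m1, ?_, ?_, ?_, ?_⟩
      · intro h'; apply h
        rw [← add_self2 m1] at h'
        exact add_left_cancel h'
      · rw [map_add, ham1, ← mul, ← hsa, mul, ham1]
      · rw [map_add, hzm1, ← mul, hzs, mul, hzm1]
      · rw [map_add, ← mul, hss, one, add_comm]
  obtain ⟨n, hn⟩ : ∃ n, n = ρ r m := ⟨_, rfl⟩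
  have hbn : ρ b n = n := by rw [hn, ← mul, ← hra, mul, ham]
  have hzn : ρ z n = n := by rw [hn, ← mul, hzr, mul, hzm]
  have hsn : ρ s n = n := by rw [hn, ← mul, hsr, hri, mul, mul, hsm, hzm]
  have hrn : ρ r n = m := by rw [hn, ← mul, ← sq, ← hzd, hzm]
  have hn0 : n ≠ 0 := fun h => hm (inj r m (hn ▸ h))
  have b3 : ∀ v : M, ρ b (ρ b (ρ b v)) = v := by
    intro v; rw [← mul, ← mul, ← hbi, inv_mul_cancel, one]
  have a3 : ∀ v : M, ρ a (ρ a (ρ a v)) = v := by
    intro v; rw [← mul, ← mul, ← hai, inv_mul_cancel, one]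
  have cab : ∀ v : M, ρ a (ρ b v) = ρ b (ρ a v) := by
    intro v; rw [← mul, hab, mul]
  have hbb : ρ b (ρ b m) = m + ρ b m := by
    have h : m + ρ b m + ρ b (ρ b m) = 0 := by
      apply hC2
      · rw [map_add, map_add, cab, cab, cab, ham]
      · rw [map_add, map_add, b3]; abel
    rw [← add_self2 (m + ρ b m)] at h
    exact add_left_cancel h
  have haa' : ρ a (ρ a n) = n + ρ a n := by
    have h : n + ρ a n + ρ a (ρ a n) = 0 := by
      apply hC2
      · rw [map_add, map_add, a3]; abel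
      · rw [map_add, map_add, ← cab, ← cab, ← cab, hbn]
    rw [← add_self2 (n + ρ a n)] at h
    exact add_left_cancel h
  obtain ⟨p, hp⟩ : ∃ p, p = ρ b m := ⟨_, rfl⟩
  obtain ⟨q, hq⟩ : ∃ q, q = ρ a n := ⟨_, rfl⟩
  have hap : ρ a p = p := by rw [hp, cab, ham]
  have hbq : ρ b q = q := by rw [hq, ← cab, hbn]
  have hbp : ρ b p = m + p := by rw [hp, hbb]
  have haq : ρ a q = n + q := by rw [hq, haa']
  have hzp : ρ z p = m + p := by rw [hp, ← mul, hz b hb, hbi, mul, hzm, mul, hbb]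
  have hzq : ρ z q = n + q := by rw [hq, ← mul, hz a ha, hai, mul, hzn, mul, haa']
  have hsp : ρ s p = m + p := by rw [hp, ← mul, hsb, hbi, mul, hsm, mul, hbb]
  have hsq : ρ s q = q := by rw [hq, ← mul, hsa, mul, hsn]
  have hrp : ρ r p = n + q := by rw [hp, ← mul, hrb, hai, mul, ← hn, mul, haa', hq]
  have hrq : ρ r q = p := by rw [hq, ← mul, hra, mul, hrn, hp]
  let E : (ZMod 2 × ZMod 2 × ZMod 2 × ZMod 2) →ₗ[ZMod 2] M :=
    { toFun := fun c => c.1 • m + c.2.1 • p + (c.2.2.1 • n + c.2.2.2 • q)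
      map_add' := by intro c d; simp only [Prod.fst_add, Prod.snd_add, add_smul]; abel
      map_smul' := by
        intro t c; simp only [Prod.smul_fst, Prod.smul_snd, smul_eq_mul, mul_smul, smul_add, RingHom.id_apply] }
  have hE : ∀ c1 c2 c3 c4 : ZMod 2, E (c1, c2, c3, c4) = c1 • m + c2 • p + (c3 • n + c4 • q) :=
    fun _ _ _ _ => rfl
  have z2 : ∀ c : ZMod 2, c = 0 ∨ c = 1 := by decide
  have two : ∀ (g : S) (u : M), u ≠ 0 → ρ g u ≠ u → ∀ c d : ZMod 2, c • u + d • ρ g u = 0 → c = 0 ∧ d = 0 := by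
    intro g u hu hgu c d h
    rcases z2 c with rfl | rfl <;> rcases z2 d with rfl | rfl
    · exact ⟨rfl, rfl⟩
    · exact absurd (inj g u (by simpa using h)) hu
    · exact absurd (by simpa using h) hu
    · exfalso; apply hgu
      rw [one_smul, one_smul, ← add_self2 u] at h
      exact add_left_cancel h
  have hEi : Function.Injective E := by
    rw [injective_iff_map_eq_zero]
    rintro ⟨c1, c2, c3, c4⟩ h
    rw [hE] at h
    have h1 : c1 • m + c2 • p = c3 • n + c4 • q := by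
      rw [← add_self2 (c1 • m + c2 • p)] at h
      exact (add_left_cancel h).symm
    have h2 : c1 • m + c2 • p = 0 := by
      apply hC2
      · rw [map_add, map_smul, map_smul, ham, hap]
      · rw [h1, map_add, map_smul, map_smul, hbn, hbq]
    have h3 : c3 • n + c4 • q = 0 := h1 ▸ h2
    obtain ⟨rfl, rfl⟩ := two b m hm (fun h => hm (hC2 m ham h)) c1 c2 (hp ▸ h2)
    obtain ⟨rfl, rfl⟩ := two a n hn0 (fun h => hn0 (hC2 n h hbn)) c3 c4 (hq ▸ h3)
    rfl
  have Ez : ∀ c1 c2 c3 c4 : ZMod 2, ρ z (E (c1, c2, c3, c4)) = E (c1 + c2, c2, c3 + c4, c4) := by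
    intro c1 c2 c3 c4
    simp only [hE, map_add, map_smul, hzm, hzp, hzn, hzq, smul_add, add_smul]; abel
  have Es : ∀ c1 c2 c3 c4 : ZMod 2, ρ s (E (c1, c2, c3, c4)) = E (c1 + c2, c2, c3, c4) := by
    intro c1 c2 c3 c4
    simp only [hE, map_add, map_smul, hsm, hsp, hsn, hsq, smul_add, add_smul]; abel
  have Er : ∀ c1 c2 c3 c4 : ZMod 2, ρ r (E (c1, c2, c3, c4)) = E (c3, c4, c1 + c2, c2) := by
    intro c1 c2 c3 c4
    simp only [hE, map_add, map_smul, ← hn, hrp, hrn, hrq, smul_add, add_smul]; abel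
  have Ea : ∀ c1 c2 c3 c4 : ZMod 2, ρ a (E (c1, c2, c3, c4)) = E (c1, c2, c4, c3 + c4) := by
    intro c1 c2 c3 c4
    simp only [hE, map_add, map_smul, ham, hap, ← hq, haq, smul_add, add_smul]; abel
  have Eb : ∀ c1 c2 c3 c4 : ZMod 2, ρ b (E (c1, c2, c3, c4)) = E (c2, c1 + c2, c3, c4) := by
    intro c1 c2 c3 c4
    simp only [hE, map_add, map_smul, hbn, hbp, ← hp, hbq, smul_add, add_smul]; abel
  have hEs : Function.Surjective E := by
    have hg : ∀ g : S, (∀ c, ∃ d, ρ g (E c) = E d) → ∀ v ∈ LinearMap.range E, ρ g v ∈ LinearMap.range E := by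
      rintro g h v ⟨c, rfl⟩
      obtain ⟨d, hd⟩ := h c
      exact ⟨d, hd.symm⟩
    have ga := hg a (fun c => ⟨_, Ea c.1 c.2.1 c.2.2.1 c.2.2.2⟩)
    have gb := hg b (fun c => ⟨_, Eb c.1 c.2.1 c.2.2.1 c.2.2.2⟩)
    have gr := hg r (fun c => ⟨_, Er c.1 c.2.1 c.2.2.1 c.2.2.2⟩)
    have gs := hg s (fun c => ⟨_, Es c.1 c.2.1 c.2.2.1 c.2.2.2⟩)
    have pw : ∀ g : S, (∀ v ∈ LinearMap.range E, ρ g v ∈ LinearMap.range E) → ∀ k : ℕ,
        ∀ v ∈ LinearMap.range E, ρ (g ^ k) v ∈ LinearMap.range E := by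
      intro g h k
      induction k with
      | zero => intro v hv; rwa [pow_zero, one]
      | succ k ih => intro v hv; rw [pow_succ, mul]; exact ih _ (h v hv)
    rcases hirr (LinearMap.range E) (by
      intro x hx v hv
      obtain ⟨i, j, rfl⟩ := span9 A hA hA9 ha hb ha1 hb1 hba hba' x hx
      rw [mul]; exact pw a ga i _ (pw b gb j v hv)) gr gs with h | h
    · exfalso; apply hm
      have : m ∈ LinearMap.range E := ⟨(1, 0, 0, 0), by simp [hE]⟩
      rwa [h, Submodule.mem_bot] at this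
    · exact LinearMap.range_eq_top.1 h
  let e : (ZMod 2 × ZMod 2 × ZMod 2 × ZMod 2) ≃ M := Equiv.ofBijective E ⟨hEi, hEs⟩
  refine ⟨?_, ?_, ?_⟩
  · rw [← Nat.card_congr e]; simp
  · have : Nat.card {c : ZMod 2 × ZMod 2 × ZMod 2 × ZMod 2 //
        (c.1 + c.2.1, c.2.1, c.2.2.1 + c.2.2.2, c.2.2.2) = c ∧ (c.1 + c.2.1, c.2.1, c.2.2.1, c.2.2.2) = c} = 4 := by
      rw [Nat.card_eq_fintype_card]; decide
    refine Eq.trans (Nat.card_congr (Equiv.subtypeEquiv e ?_)).symm this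
    rintro ⟨c1, c2, c3, c4⟩
    show _ ↔ ρ z (E _) = E _ ∧ ρ s (E _) = E _
    rw [Ez, Es, hEi.eq_iff, hEi.eq_iff]
  · have : Nat.card {c : ZMod 2 × ZMod 2 × ZMod 2 × ZMod 2 //
        (c.1 + c.2.1, c.2.1, c.2.2.1 + c.2.2.2, c.2.2.2) = c ∧
        (c.2.2.1 + c.2.2.2, c.2.2.2, c.1 + c.2.1, c.2.1) = c} = 2 := by
      rw [Nat.card_eq_fintype_card]; decide
    refine Eq.trans (Nat.card_congr (Equiv.subtypeEquiv e ?_)).symm this
    rintro ⟨c1, c2, c3, c4⟩
    show _ ↔ ρ z (E _) = E _ ∧ ρ (s * r) (E _) = E _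
    rw [mul, Ez, Er, Es, hEi.eq_iff, hEi.eq_iff]

/-- some element of order 3 among `a`, `a b`-type elements has a fixed vector -/
theorem exists_fixed (ρ : Representation (ZMod 2) S M) {a b : S} (ha : a ^ 3 = 1) (hb : b ^ 3 = 1)
    (hab : a * b = b * a) (m : M) (hm : m ≠ 0) :
    ∃ v : M, v ≠ 0 ∧ (ρ a v = v ∨ ρ b v = v ∨ ρ (a * b) v = v ∨ ρ (b * a⁻¹) v = v) := by
  have mul : ∀ (g h : S) (v : M), ρ (g * h) v = ρ g (ρ h v) := by
    intro g h v; rw [map_mul]; rfl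
  have one : ∀ v : M, ρ 1 v = v := by intro v; rw [map_one]; rfl
  by_contra hcon
  push Not at hcon
  have a3 : ∀ v : M, ρ a (ρ a (ρ a v)) = v := by
    intro v; rw [← mul, ← mul, ← sq, ← pow_succ, ha, one]
  have b3 : ∀ v : M, ρ b (ρ b (ρ b v)) = v := by
    intro v; rw [← mul, ← mul, ← sq, ← pow_succ, hb, one]
  have cab : ∀ v : M, ρ a (ρ b v) = ρ b (ρ a v) := by
    intro v; rw [← mul, hab, mul]
  have sq2 : ∀ g : S, (∀ v : M, ρ g (ρ g (ρ g v)) = v) → (∀ v : M, ρ g v = v → v = 0) →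
      ∀ v : M, ρ g (ρ g v) = v + ρ g v := by
    intro g h3 h0 v
    have h : v + ρ g v + ρ g (ρ g v) = 0 := by
      apply h0
      rw [map_add, map_add, h3]; abel
    rw [← add_self2 (v + ρ g v)] at h
    exact add_left_cancel h
  have aa := sq2 a a3 (fun v h => by by_contra h'; exact (hcon v h').1 h)
  have bb := sq2 b b3 (fun v h => by by_contra h'; exact (hcon v h').2.1 h)
  have hu : ρ a (ρ a m) + ρ b m ≠ 0 := by
    intro h
    apply (hcon m hm).2.2.1
    rw [← add_self2 (ρ a (ρ a m))] at h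
    have h1 := add_left_cancel h
    rw [mul, h1, a3]
  apply (hcon _ hu).2.2.2
  have h2 : ρ a (ρ a (ρ a m) + ρ b m) = ρ b (ρ a (ρ a m) + ρ b m) := by
    rw [map_add, map_add, a3, bb, aa, map_add, cab]
    have := add_self2 (ρ b m)
    calc m + ρ b (ρ a m) = m + ρ b (ρ a m) + (ρ b m + ρ b m) := by rw [this, add_zero]
      _ = _ := by abel
  have h3 : b * a⁻¹ = a⁻¹ * b := by
    have : Commute a b := hab
    exact this.inv_left.eq.symm
  rw [h3, mul, ← h2, ← mul, inv_mul_cancel, one]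

end

end Cfsg.Agent.H53.D8Mod
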