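import Cfsg.Agent.H53.FeitFrob
import Cfsg.Agent.PF.P6_8

/-! The Feit-Sibley theorem for a nilpotent TI-subgroup containing the centralisers of its
non-identity elements. -/

set_option autoImplicit false

open Cfsg Cfsg.Agent.H49 Cfsg.Agent.H54 Cfsg.Agent.H52

namespace Cfsg.Agent.H53

variable {G : Type*} [Group G] {K L : Subgroup G}

theorem frobKer_subgroupOf (h : FrobKer L K) : FrobKer ⊤ (K.subgroupOf L) := by
  refine ⟨normalIn_top_iff.2 (normal_subgroupOf h.normal.norm), fun e => h.ne_bot ?_,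
    fun e => h.ne_top (le_antisymm h.normal.le (Subgroup.subgroupOf_eq_top.1 e)),
    fun x hx hx1 y hy => h.cent x hx (fun e => hx1 (Subtype.ext e))
      ⟨y.2, mem_cent1.2 (congrArg Subtype.val (mem_cent1.1 hy.2))⟩⟩
  rw [Subgroup.subgroupOf_eq_bot] at e
  exact e.eq_bot_of_le h.normal.le

theorem frobKer_of_cent (hK1 : K ≠ ⊥) (hlt : K < 𝒩(K))
    (hC : ∀ k ∈ K, k ≠ 1 → 𝒞[k] ≤ K) : FrobKer 𝒩(K) K :=
  ⟨⟨hlt.le, le_rfl⟩, hK1, hlt.ne, fun k hk hk1 => inf_le_right.trans (hC k hk hk1)⟩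

theorem relIndex_der_subgroupOf (h : K ≤ L) :
    ⁅K.subgroupOf L, K.subgroupOf L⁆.relIndex (K.subgroupOf L) = ⁅K, K⁆.relIndex K := by
  rw [← relIndex_map_subtype, Subgroup.map_commutator, Subgroup.subgroupOf_map_subtype,
    inf_eq_left.2 h]

theorem abelian_subgroupOf_iff (h : K ≤ L) :
    IsMulCommutative (K.subgroupOf L) ↔ IsMulCommutative K :=
  ⟨fun h1 => H2.isMulCommutative_of_forall fun x hx y hy => congrArg Subtype.val
      (H2.mul_comm_of_mem h1 (x := ⟨x, h hx⟩) (y := ⟨y, h hy⟩) hx hy),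
    fun h1 => H2.isMulCommutative_of_forall fun _ hx _ hy =>
      Subtype.ext (H2.mul_comm_of_mem h1 hx hy)⟩

theorem card_eq_sylow_of_cent [Finite G] {p m : ℕ} (hp : p.Prime) (hK1 : K ≠ ⊥)
    (hm : Nat.card K = p ^ m) (hC : ∀ k ∈ K, k ≠ 1 → 𝒞[k] ≤ K) :
    Nat.card K = p ^ (Nat.card G).factorization p := by
  have := Fact.mk hp
  obtain ⟨P, hP⟩ := (IsPGroup.of_card hm).exists_le_sylow
  have : Nontrivial P := (Subgroup.nontrivial_iff_ne_bot _).2 (ne_bot_mono hP hK1)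
  have := P.isPGroup'.center_nontrivial
  obtain ⟨z, hz⟩ := exists_ne (1 : Subgroup.center P)
  obtain ⟨k, hk, hk1⟩ := ne_bot_iff_exists.1 hK1
  have hc : ∀ y ∈ (P : Subgroup G), y * z = z * y := fun y hy =>
    congrArg Subtype.val (Subgroup.mem_center_iff.1 z.2 ⟨y, hy⟩)
  have h1 : ((z : P) : G) ∈ K := hC k hk hk1 (mem_cent1.2 (hc k (hP hk)).symm)
  have h2 : (P : Subgroup G) ≤ K := fun y hy =>
    hC _ h1 (fun e => hz (Subtype.ext (Subtype.ext e))) (mem_cent1.2 (hc y hy))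
  rw [le_antisymm hP h2, P.card_eq_multiplicity]

variable [Fintype G] [Fintype L]

theorem ti_isometry (hK : K ≤ L) (nK : L ≤ 𝒩(K))
    (hTI : ∀ g : G, g ∉ L → ∀ t ∈ K, g * t * g⁻¹ ∈ K → t = 1) :
    IsLinearIsometryOn (zspanOn (seqIndD (K.subgroupOf L) ⊤ (K.subgroupOf L) ⊥ : Set (L → ℂ)) {1}ᶜ)
      (H6.indLin L) := by
  have _ := hK
  have nK' : ⊤ ≤ 𝒩(K.subgroupOf L) := normal_iff_top_le_norm.1 (normal_subgroupOf nK)
  have hv : ∀ α ∈ zspanOn (seqIndD (K.subgroupOf L) ⊤ (K.subgroupOf L) ⊥ : Set (L → ℂ)) {1}ᶜ,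
      IsGeneralizedCharacter L α ∧ ∀ x : L, (x : G) ∉ (K : Set G) → α x = 0 := fun α hα =>
    ⟨mem_vchar_top.1 (Z_seqIndT_vchar le_top (seqIndD_subset_T _ _ _ _) hα.1),
      fun x hx => (Z_seqIndT_CFon nK' (seqIndD_subset_T _ _ _ _) hα.1).2 x hx⟩
  exact isometryOn_of_linear _ (fun α hα β hβ => H6.classInner_indFun_indFun_of_TI L K hTI
    (virt_classFun (hv β hβ).1) (hv α hα).2 (hv β hβ).2 (mem_zspanOn_one.1 hα).2)
    fun α hα => H6.isGeneralizedCharacter_indFun L (hv α hα).1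

omit [Fintype L] in
theorem indLin_one {S : Set (L → ℂ)} : ∀ α ∈ zspanOn S {1}ᶜ, H6.indLin L α 1 = 0 := fun α hα => by
  rw [H6.indLin_apply, H6.indFun_apply_one, (mem_zspanOn_one.1 hα).2, mul_zero]

theorem sibley_frozen (h : FrobKer L K) (hodd : Odd (Nat.card L)) (hnil : Group.IsNilpotent K)
    (hTI : ∀ g : G, g ∉ L → ∀ t ∈ K, g * t * g⁻¹ ∈ K → t = 1) :
    IsCoherent (seqIndD (K.subgroupOf L) ⊤ (K.subgroupOf L) ⊥ : Set (L → ℂ)) {1}ᶜ
      (fun α => indFun L α) := by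
  obtain ⟨a, ha, ha1⟩ := ne_bot_iff_exists.1 h.ne_bot
  have hti : NormedTI (sharp K) L :=
    ⟨⟨a, ha, ha1⟩, fun h => h.2 rfl, fun x hx => h.normal.le hx.1,
      fun g hg x hx => ⟨conj_mem_of_norm h.normal.norm hg hx.1, fun e => hx.2 (by simpa using e)⟩,
      fun g x hx hg => by_contra fun hgL => hx.2 (hTI g hgL x hx.1 hg.1)⟩
  have hc := PF.Sibley_coherence_Frobenius hodd hnil hti h
  obtain ⟨φ, hφ⟩ := seqIndD_nonempty (K := K) (L := L) (NormalIn.bot K)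
    fun e => h.ne_bot (le_bot_iff.1 e)
  have := H3.isCoherent_rst (fun α => H3.mem_inducedIrrAbove_subgroupOf h.normal.le)
    (fun φ hφ => seqIndT_vchar h.normal.le (seqIndD_subset_T _ _ _ _ hφ))
    ⟨φ, hφ, conjFun_seqIndD hφ, seqIndD_conjFun_ne h.normal hodd le_rfl hφ⟩ hc
  rw [H3.inducedIrrAbove_eq bot_le] at this
  simpa only [ind_top_extend] using this

omit [Fintype L] in
theorem frob_odd_of_nonabelian (h : FrobKer L K) (hab : ¬ IsMulCommutative K)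
    (hodd : Odd (Nat.card K)) : Odd (Nat.card L) := by
  rw [← card_mul_relIndex h.normal.le]
  exact hodd.mul (Nat.not_even_iff_odd.1 fun e => hab (frob_abelian_of_even h e))

/-- The Feit-Sibley theorem. -/
theorem feit_sibley (h : FrobKer L K) (hnil : Group.IsNilpotent K)
    (hTI : ∀ g : G, g ∉ L → ∀ t ∈ K, g * t * g⁻¹ ∈ K → t = 1) :
    Nat.card K = K.relIndex L + 1 ∨
      ((∃ m, Nat.card K = 2 ^ m) ∧ ¬ IsMulCommutative K ∧ ⁅K, K⁆.relIndex K < 4 * K.relIndex L ^ 2) ∨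
      IsCoherent (seqIndD (K.subgroupOf L) ⊤ (K.subgroupOf L) ⊥ : Set (L → ℂ)) {1}ᶜ
        (fun α => indFun L α) := by
  have h' := frobKer_subgroupOf h
  have hnil' : Group.IsNilpotent (K.subgroupOf L) :=
    Group.nilpotent_of_mulEquiv (Subgroup.subgroupOfEquivOfLe h.normal.le).symm
  have hc : Nat.card (K.subgroupOf L) = Nat.card K := H49.card_subgroupOf_of_le h.normal.le
  by_cases he : Nat.card K = K.relIndex L + 1
  · exact Or.inl he
  refine Or.inr ?_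
  rcases feit_frob h' (ti_isometry h.normal.le h.normal.norm hTI) indLin_one hnil' with
    ⟨ν, hν⟩ | ⟨p, hp, ⟨m, hm⟩, hab, hb⟩
  · obtain ⟨a, ha, b, hb, hab⟩ := frob_exists_two h' (solvable_of_nilpotent hnil') (by rwa [hc])
    exact Or.inr (isCoherent_of_cohWith hν (exists_ne_zero_of_two_irr
      (fun _ hχ => mem_irr_top.1 (frob_seqIndD_irr h' hχ)) ha hb hab))
  rw [hc] at hm
  rw [abelian_subgroupOf_iff h.normal.le] at hab
  rw [relIndex_der_subgroupOf h.normal.le] at hb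
  rcases hp.eq_two_or_odd' with rfl | hodd
  swap
  · exact Or.inr (sibley_frozen h (frob_odd_of_nonabelian h hab (hm ▸ hodd.pow)) hnil hTI)
  refine Or.inl ⟨⟨m, hm⟩, hab, ?_⟩
  have he1 : Odd (K.relIndex L) := Nat.not_even_iff_odd.1 fun e => hab (frob_abelian_of_even h e)
  have he2 : 1 < K.relIndex L := H3.one_lt_relIndex fun e => h.ne_top (le_antisymm h.normal.le e)
  obtain ⟨a, -, ha⟩ := (Nat.dvd_prime_pow hp).1 (hm ▸ Subgroup.relIndex_dvd_card ⁅K, K⁆ K)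
  change _ ≤ 4 * K.relIndex L ^ 2 + 1 at hb
  rw [ha] at hb ⊢
  rcases hb.eq_or_lt with e | e
  · cases a with
    | zero => nlinarith
    | succ a => omega
  refine lt_of_le_of_ne (Nat.lt_succ_iff.1 e) fun e => he2.ne' ?_
  exact Nat.eq_one_of_dvd_coprimes ((Nat.coprime_two_right.2 he1).pow_right a) dvd_rfl
    (e ▸ Dvd.dvd.mul_left (dvd_pow_self _ two_ne_zero) 4)

end Cfsg.Agent.H53
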